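import Cfsg.Agent.Lib.AltModule.P2.M5.Def

/-!
Checks for piece 5 of the certificate.
-/

namespace Cfsg.Agent.AltMod.P2.M5

theorem fix5_1 : mdl.fixOk 2 ((subs.getD 7 ([], [])).1) v5 k5 0x100000000000000010000000000010000000100010001000100010000000100000001000100000000000100010001000100000000000100010001000000000000000000010001000000010000000000010001000000010000000000000001000000000000000100010001000000000001000100010001000100010000000100010000000000010001 = true := by
  decide +kernel

theorem fix5_2 : mdl.fixOk 2 ((subs.getD 7 ([], [])).2) v5 k5 0x1000000000000000100000000000000010000000100010001000000010001000000000000000100000000000100010001000000000001000100000000000000010001000000000000000100000001000100010000000100000001000100010000000100000000000000010000000000010001000000000001000100000000000000010001000100000001 = true := by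
  decide +kernel

theorem spin5_len : e5.length = 0 := by decide +kernel

theorem spin5 : ∀ i < (e5.length + 49) / 50,
    mdl.spinOk 2 v5 e5 (50 * i) (min 50 (e5.length - 50 * i)) = true := by
  rw [spin5_len]
  intro i hi
  omega

end Cfsg.Agent.AltMod.P2.M5
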